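import Cfsg.Prelude.Def_Characters
import Cfsg.Agent.Eq.Def_Characters
import Cfsg.Agent.Chars.Basic
import Cfsg.Agent.Chars.Induced.Rep
import Cfsg.Agent.Classical.Linear.Bases
import Mathlib.NumberTheory.MulChar.Duality

/-!
# The permutation character of `SL_n` on non-zero vectors

`chiA α g` is the `α`-isotypic part (for the scalars) of the permutation character. For `α ≠ 1` it
is irreducible, and for `α = 1` it is the principal character plus an irreducible one.
-/

set_option autoImplicit false
set_option linter.unusedSectionVars false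

noncomputable section

open scoped Classical ComplexConjugate

namespace CfsgLib.SlVectorChars

open Cfsg Matrix

variable {F : Type*} [Field F] [Fintype F] [DecidableEq F] {n : ℕ}

local notation "SLn" => Matrix.SpecialLinearGroup (Fin n) F

/-- The number of elements carrying one family to another. -/
def numMaps {κ : Type*} [Fintype κ] (v w : κ → Fin n → F) : ℕ :=
  (Finset.univ.filter fun g : SLn => ∀ a, (g : Matrix (Fin n) (Fin n) F) *ᵥ v a = w a).card

lemma mulVec_inj (g : SLn) {x y : Fin n → F}
    (h : (g : Matrix (Fin n) (Fin n) F) *ᵥ x = (g : Matrix (Fin n) (Fin n) F) *ᵥ y) : x = y := by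
  have := congrArg (fun z => ((g⁻¹ : SLn) : Matrix (Fin n) (Fin n) F) *ᵥ z) h
  simp only [Matrix.mulVec_mulVec, ← Matrix.SpecialLinearGroup.coe_mul, inv_mul_cancel,
    Matrix.SpecialLinearGroup.coe_one, Matrix.one_mulVec] at this
  exact this

lemma linearIndependent_image {κ : Type*} {v : κ → Fin n → F} (hv : LinearIndependent F v) (g : SLn) :
    LinearIndependent F fun a => (g : Matrix (Fin n) (Fin n) F) *ᵥ v a :=
  hv.map' (Matrix.mulVecLin (g : Matrix (Fin n) (Fin n) F))
    (LinearMap.ker_eq_bot.2 fun _ _ h => mulVec_inj g h)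

lemma numMaps_eq {κ : Type*} [Fintype κ] (hκ : Fintype.card κ < n) {v w w' : κ → Fin n → F}
    (hw : LinearIndependent F w) (hw' : LinearIndependent F w') :
    numMaps v w = numMaps v w' := by
  obtain ⟨h, hh⟩ := CfsgLib.Classical.Linear.exists_sl_map_family
    (ι := Fin n) (by simpa using hκ) hw hw'
  refine Finset.card_equiv (Equiv.mulLeft h) fun g => ?_
  simp only [Finset.mem_filter, Finset.mem_univ, true_and, Equiv.coe_mulLeft,
    Matrix.SpecialLinearGroup.coe_mul, ← Matrix.mulVec_mulVec]
  refine forall_congr' fun a => ⟨fun e => by rw [e, hh], fun e => mulVec_inj h (by rw [e, hh])⟩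

lemma numMaps_mul_card {κ : Type*} [Fintype κ] (hκ : Fintype.card κ < n) {v w : κ → Fin n → F}
    (hv : LinearIndependent F v) (hw : LinearIndependent F w) :
    numMaps v w * (Finset.univ.filter fun x : κ → Fin n → F => LinearIndependent F x).card =
      Nat.card SLn := by
  rw [Nat.card_eq_fintype_card, ← Finset.card_univ (α := SLn),
    Finset.card_eq_sum_card_fiberwise (f := fun g : SLn => fun a => (g : Matrix (Fin n) (Fin n) F) *ᵥ v a)
      (t := Finset.univ.filter fun x : κ → Fin n → F => LinearIndependent F x)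
      (fun g _ => by simpa using linearIndependent_image hv g)]
  rw [Finset.sum_congr rfl (g := fun _ => numMaps v w), Finset.sum_const, smul_eq_mul, mul_comm]
  intro x hx
  rw [Finset.mem_filter] at hx
  rw [numMaps_eq hκ hw hx.2, numMaps]
  congr 1
  exact Finset.filter_congr fun g _ => funext_iff

lemma linearIndependent_single {v : Fin n → F} (hv : v ≠ 0) :
    LinearIndependent F (fun _ : Fin 1 => v) := LinearIndependent.of_subsingleton 0 hv

/-- The number of elements with `g v = c • v`, `g w = d • w`. -/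
def numEigen (c d : F) (v w : Fin n → F) : ℕ :=
  (Finset.univ.filter fun g : SLn => (g : Matrix (Fin n) (Fin n) F) *ᵥ v = c • v ∧
    (g : Matrix (Fin n) (Fin n) F) *ᵥ w = d • w).card

lemma card_single :
    (Finset.univ.filter fun x : Fin 1 → Fin n → F => LinearIndependent F x).card =
      (Finset.univ.filter fun v : Fin n → F => v ≠ 0).card := by
  refine Finset.card_equiv (Equiv.funUnique (Fin 1) _) fun x => ?_
  simp only [Finset.mem_filter, Finset.mem_univ, true_and]
  constructor
  · intro h; exact h.ne_zero 0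
  · intro h
    have : x = fun _ => x 0 := funext fun a => by rw [Subsingleton.elim a 0]
    rw [this]
    exact linearIndependent_single h

lemma card_pair :
    (Finset.univ.filter fun x : Fin 2 → Fin n → F => LinearIndependent F x).card =
      (Finset.univ.filter fun p : (Fin n → F) × (Fin n → F) =>
        LinearIndependent F ![p.1, p.2]).card := by
  refine Finset.card_equiv (finTwoArrowEquiv (Fin n → F)) fun x => ?_
  simp only [Finset.mem_filter, Finset.mem_univ, true_and, finTwoArrowEquiv_apply]
  have : ![x 0, x 1] = x := by funext i; fin_cases i <;> rfl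
  show _ ↔ LinearIndependent F ![x 0, x 1]
  rw [this]

/-- The pairs of common eigenvectors over the group, counted. -/
lemma sum_numEigen (hn : 3 ≤ n) (c d : Fˣ) :
    (∑ v : {v : Fin n → F // v ≠ 0}, ∑ w : {v : Fin n → F // v ≠ 0},
        numEigen (c : F) d (v : Fin n → F) w : ℕ) =
      Nat.card SLn * (1 + if c = d then Fintype.card Fˣ else 0) := by
  have hne : ∀ (e : Fˣ) {x : Fin n → F}, x ≠ 0 → (e : F) • x ≠ 0 :=
    fun e x hx => smul_ne_zero e.ne_zero hx
  set e0 : Fin n → F := Pi.single ⟨0, by omega⟩ 1 with he0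
  have he0' : e0 ≠ 0 := by simp [he0]
  set e1 : Fin n → F := Pi.single ⟨1, by omega⟩ 1 with he1
  have hpair0 : LinearIndependent F ![e0, e1] := by
    rw [LinearIndependent.pair_iff' he0']
    intro a h
    have := congrFun h ⟨1, by omega⟩
    simp [he0, he1] at this
  set N1 := (Finset.univ.filter fun v : Fin n → F => v ≠ 0).card
  set N2 := (Finset.univ.filter fun p : (Fin n → F) × (Fin n → F) =>
    LinearIndependent F ![p.1, p.2]).card
  set S1 := numMaps (κ := Fin 1) (fun _ => e0) (fun _ => e0)
  set S2 := numMaps (κ := Fin 2) ![e0, e1] ![e0, e1]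
  have h1 : S1 * N1 = Nat.card SLn := by
    have h := numMaps_mul_card (κ := Fin 1) (n := n) (by simp; omega) (linearIndependent_single he0')
      (linearIndependent_single he0')
    simp only [N1]
    rw [← card_single]
    convert h
  have h2 : S2 * N2 = Nat.card SLn := by
    have h := numMaps_mul_card (κ := Fin 2) (n := n) (by simp; omega) hpair0 hpair0
    simp only [N2]
    rw [← card_pair]
    convert h
  have pairc : ∀ v w : {v : Fin n → F // v ≠ 0},
      numEigen (c : F) d (v : Fin n → F) w =
        (if LinearIndependent F ![(v : Fin n → F), (w : Fin n → F)] then S2 else 0) +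
          if c = d then ∑ l : Fˣ, (if (l : F) • (v : Fin n → F) = (w : Fin n → F) then S1 else 0)
            else 0 := by
    rintro ⟨v, hv⟩ ⟨w, hw⟩
    by_cases hi : LinearIndependent F ![v, w]
    · have hz : ∀ l : Fˣ, (l : F) • v ≠ w := fun l => (LinearIndependent.pair_iff' hv).1 hi l
      rw [if_pos hi]
      simp only [hz, if_false, Finset.sum_const_zero, ite_self, add_zero]
      have hi' : LinearIndependent F ![(c : F) • v, (d : F) • w] := by
        rw [LinearIndependent.pair_iff' (hne c hv)]
        intro a h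
        refine (LinearIndependent.pair_iff' hv).1 hi (((d⁻¹ : Fˣ) : F) * (a * c)) ?_
        rw [← smul_smul, ← smul_smul, h, smul_smul, Units.inv_mul, one_smul]
      have e : numEigen (c : F) d v w = numMaps (κ := Fin 2) ![v, w] ![(c : F) • v, (d : F) • w] := by
        simp [numEigen, numMaps, Fin.forall_fin_two]
      have hp : 0 < N2 := Finset.card_pos.2 ⟨(e0, e1), by simp [hpair0]⟩
      rw [e]
      refine Nat.eq_of_mul_eq_mul_right hp ?_
      rw [h2]
      have h := numMaps_mul_card (κ := Fin 2) (n := n) (by simp; omega) hi hi'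
      simp only [N2]
      rw [← card_pair]
      convert h
    · rw [if_neg hi, zero_add]
      obtain ⟨l, hl⟩ : ∃ l : Fˣ, (l : F) • v = w := by
        by_contra hcon
        apply hi
        rw [LinearIndependent.pair_iff' hv]
        intro a ha
        by_cases ha0 : a = 0
        · exact hw (by rw [← ha, ha0, zero_smul])
        · exact hcon ⟨Units.mk0 a ha0, ha⟩
      subst hl
      have huniq : ∀ m : Fˣ, (m : F) • v = (l : F) • v ↔ l = m := fun m => by
        constructor
        · intro h
          exact Units.ext (smul_left_injective F hv h).symm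
        · rintro rfl; rfl
      simp only [huniq, Finset.sum_ite_eq, Finset.mem_univ, if_true]
      split_ifs with hcd
      · subst hcd
        have e : numEigen (c : F) c v ((l : F) • v) =
            numMaps (κ := Fin 1) (fun _ => v) (fun _ => (c : F) • v) := by
          simp only [numEigen, numMaps, forall_const]
          congr 1
          refine Finset.filter_congr fun g _ => ⟨fun h => h.1, fun h => ⟨h, ?_⟩⟩
          rw [Matrix.mulVec_smul, h, smul_comm]
        rw [e]
        have hp : 0 < N1 := Finset.card_pos.2 ⟨e0, by simp [he0']⟩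
        refine Nat.eq_of_mul_eq_mul_right hp ?_
        rw [h1]
        have h := numMaps_mul_card (κ := Fin 1) (n := n) (by simp; omega)
          (linearIndependent_single hv) (linearIndependent_single (hne c hv))
        simp only [N1]
        rw [← card_single]
        convert h
      · rw [numEigen, Finset.card_eq_zero, Finset.filter_eq_empty_iff]
        rintro g - ⟨hgv, hgw⟩
        rw [Matrix.mulVec_smul, hgv, smul_smul, smul_smul, mul_comm] at hgw
        exact hcd (Units.ext (mul_right_cancel₀ l.ne_zero (smul_left_injective F hv hgw)))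
  simp only [pairc, Finset.sum_add_distrib, mul_add, mul_one]
  congr 1
  · rw [← h2, ← Fintype.sum_prod_type', ← Finset.sum_filter, Finset.sum_const, smul_eq_mul, mul_comm]
    congr 1
    refine Finset.card_bij (fun p _ => ((p.1 : Fin n → F), (p.2 : Fin n → F))) (fun p hp => ?_)
      (fun p _ q _ h => Prod.ext (Subtype.ext (congrArg Prod.fst h))
        (Subtype.ext (congrArg Prod.snd h))) (fun p hp => ?_)
    · simpa using hp
    · simp only [Finset.mem_filter, Finset.mem_univ, true_and] at hp
      have hp' : LinearIndependent F ![p.1, p.2] := hp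
      exact ⟨(⟨p.1, by simpa using hp'.ne_zero 0⟩, ⟨p.2, by simpa using hp'.ne_zero 1⟩),
        by simpa using hp', rfl⟩
  · split_ifs with hcd
    · rw [← h1]
      have hl : ∀ (v : {v : Fin n → F // v ≠ 0}) (l : Fˣ),
          ∑ w : {v : Fin n → F // v ≠ 0},
            (if (l : F) • (v : Fin n → F) = (w : Fin n → F) then S1 else 0) = S1 := fun v l => by
        rw [Fintype.sum_eq_single (⟨(l : F) • (v : Fin n → F), hne l v.2⟩ : {v : Fin n → F // v ≠ 0})
          (fun w hw => if_neg fun h => hw (Subtype.ext h.symm)), if_pos rfl]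
      rw [Finset.sum_congr rfl (fun v _ => by rw [Finset.sum_comm]),
        Finset.sum_congr rfl (fun v _ => Finset.sum_congr rfl fun l _ => hl v l)]
      simp only [Finset.sum_const, Finset.card_univ, smul_eq_mul, Fintype.card_subtype, N1]
      ring
    · simp

/-! ### The isotypic characters -/

/-- The first basis vector. -/
def base (F : Type*) [Field F] (n : ℕ) [NeZero n] : Fin n → F := Pi.single 0 1

/-- The stabiliser of the line of `base`. -/
def lineStab [NeZero n] : Subgroup SLn where
  carrier := {g | ∃ c : Fˣ, (g : Matrix (Fin n) (Fin n) F) *ᵥ base F n = (c : F) • base F n}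
  one_mem' := ⟨1, by simp⟩
  mul_mem' := by
    rintro a b ⟨c, hc⟩ ⟨d, hd⟩
    exact ⟨c * d, by rw [Matrix.SpecialLinearGroup.coe_mul, ← Matrix.mulVec_mulVec, hd,
      Matrix.mulVec_smul, hc, smul_smul, Units.val_mul, mul_comm]⟩
  inv_mem' := by
    rintro a ⟨c, hc⟩
    refine ⟨c⁻¹, mulVec_inj a ?_⟩
    rw [Matrix.mulVec_smul, hc, smul_smul, Units.inv_mul, one_smul, Matrix.mulVec_mulVec,
      ← Matrix.SpecialLinearGroup.coe_mul, mul_inv_cancel, Matrix.SpecialLinearGroup.coe_one,
      Matrix.one_mulVec]

lemma lineScalar [NeZero n] (g : (lineStab : Subgroup SLn)) {c : Fˣ}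
    (hc : ((g : SLn) : Matrix (Fin n) (Fin n) F) *ᵥ base F n = (c : F) • base F n) :
    (((g : SLn) : Matrix (Fin n) (Fin n) F) *ᵥ base F n) 0 = c := by
  rw [hc]; simp [base]

/-- The linear character `g ↦ α (scalar of g on base)`. -/
def lineChar [NeZero n] (α : MulChar F ℂ) : (lineStab : Subgroup SLn) →* ℂ where
  toFun g := α ((((g : SLn) : Matrix (Fin n) (Fin n) F) *ᵥ base F n) 0)
  map_one' := by simp [base]
  map_mul' a b := by
    obtain ⟨c, hc⟩ := a.2
    obtain ⟨d, hd⟩ := b.2
    rw [lineScalar a hc, lineScalar b hd, ← map_mul]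
    congr 1
    rw [Subgroup.coe_mul, Matrix.SpecialLinearGroup.coe_mul, ← Matrix.mulVec_mulVec, hd,
      Matrix.mulVec_smul, hc]
    simp [base, mul_comm]

/-- The `α`-part of the permutation character. -/
def chiA (α : MulChar F ℂ) (g : SLn) : ℂ :=
  (Fintype.card Fˣ : ℂ)⁻¹ * ∑ v : {v : Fin n → F // v ≠ 0}, ∑ c : Fˣ,
    if (g : Matrix (Fin n) (Fin n) F) *ᵥ (v : Fin n → F) = (c : F) • (v : Fin n → F) then α c else 0

/-- A sum over the group of a function of `x • base`. -/
lemma sum_comp_base [NeZero n] (hn : 2 ≤ n) (f : {v : Fin n → F // v ≠ 0} → ℂ)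
    (hb : base F n ≠ 0) :
    ∑ x : SLn, f ⟨(x : Matrix (Fin n) (Fin n) F) *ᵥ base F n,
        fun h => hb (mulVec_inj x (by rw [h, Matrix.mulVec_zero]))⟩ =
      (numMaps (κ := Fin 1) (fun _ => base F n) (fun _ => base F n) : ℂ) *
        ∑ v : {v : Fin n → F // v ≠ 0}, f v := by
  rw [← Finset.sum_fiberwise Finset.univ (fun x : SLn =>
    (⟨(x : Matrix (Fin n) (Fin n) F) *ᵥ base F n,
      fun h => hb (mulVec_inj x (by rw [h, Matrix.mulVec_zero]))⟩ : {v : Fin n → F // v ≠ 0})),
    Finset.mul_sum]
  refine Finset.sum_congr rfl fun v _ => ?_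
  rw [Finset.sum_congr rfl (g := fun _ => f v) (fun x hx => by rw [(Finset.mem_filter.1 hx).2]),
    Finset.sum_const, nsmul_eq_mul]
  congr 2
  rw [numMaps_eq (κ := Fin 1) (n := n) (w' := fun _ => (v : Fin n → F)) (by simp; omega)
    (linearIndependent_single hb) (linearIndependent_single v.2), numMaps]
  congr 1
  ext x
  simp [Subtype.ext_iff]

lemma indFun_lineChar [NeZero n] (hn : 2 ≤ n) (α : MulChar F ℂ) :
    indFun (lineStab : Subgroup SLn) (fun h => lineChar α h) = chiA α := by
  have hb : base F n ≠ 0 := by simp [base]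
  funext g
  set S := numMaps (κ := Fin 1) (n := n) (fun _ => base F n) (fun _ => base F n)
  have hS : S ≠ 0 := by
    intro h0
    have h := numMaps_mul_card (κ := Fin 1) (n := n) (by simp; omega)
      (linearIndependent_single hb) (linearIndependent_single hb)
    rw [show numMaps (κ := Fin 1) (n := n) (fun _ => base F n) (fun _ => base F n) = 0 from h0,
      zero_mul] at h
    exact Nat.card_pos.ne h
  have hcard : (Nat.card (lineStab : Subgroup SLn) : ℂ) = S * Fintype.card Fˣ := by
    rw [Nat.card_eq_fintype_card, Fintype.card_subtype, Finset.natCast_card_filter]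
    have h := sum_comp_base hn (fun v =>
      if ∃ c : Fˣ, (v : Fin n → F) = (c : F) • base F n then (1 : ℂ) else 0) hb
    refine Eq.trans ?_ (h.trans ?_)
    · exact Finset.sum_congr rfl fun x _ => if_congr Iff.rfl rfl rfl
    · rw [← Finset.natCast_card_filter]
      congr 2
      rw [← Finset.card_univ (α := Fˣ)]
      refine (Finset.card_bij (fun (c : Fˣ) _ => (⟨(c : F) • base F n, smul_ne_zero c.ne_zero hb⟩ :
          {v : Fin n → F // v ≠ 0})) (fun c _ => by simp; exact ⟨c, rfl⟩) ?_ ?_).symm
      · intro c _ d _ h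
        exact Units.ext (smul_left_injective F hb (congrArg Subtype.val h))
      · intro v hv
        obtain ⟨c, hc⟩ := (Finset.mem_filter.1 hv).2
        exact ⟨c, Finset.mem_univ _, Subtype.ext hc.symm⟩
  have hext : ∀ x : SLn, extendByZero (lineStab : Subgroup SLn) (fun h => lineChar α h)
      (x⁻¹ * g * x) = ∑ c : Fˣ, if (g : Matrix (Fin n) (Fin n) F) *ᵥ
        ((x : Matrix (Fin n) (Fin n) F) *ᵥ base F n) =
          (c : F) • ((x : Matrix (Fin n) (Fin n) F) *ᵥ base F n) then α c else 0 := by
    intro x
    have key : ∀ c : Fˣ, ((g : Matrix (Fin n) (Fin n) F) *ᵥ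
        ((x : Matrix (Fin n) (Fin n) F) *ᵥ base F n) =
          (c : F) • ((x : Matrix (Fin n) (Fin n) F) *ᵥ base F n)) ↔
        ((x⁻¹ * g * x : SLn) : Matrix (Fin n) (Fin n) F) *ᵥ base F n = (c : F) • base F n := by
      intro c
      rw [← Matrix.mulVec_smul, Matrix.mulVec_mulVec, ← Matrix.SpecialLinearGroup.coe_mul]
      constructor
      · intro h
        apply mulVec_inj x
        rw [← h, Matrix.mulVec_mulVec, ← Matrix.SpecialLinearGroup.coe_mul,
          show x * (x⁻¹ * g * x) = g * x by group]
      · intro h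
        rw [← h, Matrix.mulVec_mulVec, ← Matrix.SpecialLinearGroup.coe_mul,
          show x * (x⁻¹ * g * x) = g * x by group]
    simp only [key]
    by_cases hx : x⁻¹ * g * x ∈ (lineStab : Subgroup SLn)
    · obtain ⟨c, hc⟩ := hx
      rw [Chars.Induced.extendByZero_mem _ (show x⁻¹ * g * x ∈ (lineStab : Subgroup SLn) from ⟨c, hc⟩)]
      rw [Fintype.sum_eq_single c, if_pos hc]
      · show α _ = α _
        rw [lineScalar ⟨_, ⟨c, hc⟩⟩ hc]
      · intro d hd
        rw [if_neg]
        exact fun h => hd (Units.ext (smul_left_injective F hb (h.symm.trans hc)))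
    · rw [Chars.Induced.extendByZero_notMem _ hx]
      exact (Finset.sum_eq_zero fun c _ => if_neg fun h => hx ⟨c, h⟩).symm
  simp only [indFun, hext]
  rw [sum_comp_base hn (fun v => ∑ c : Fˣ, if (g : Matrix (Fin n) (Fin n) F) *ᵥ (v : Fin n → F) =
    (c : F) • (v : Fin n → F) then α c else 0) hb, hcard, chiA]
  have : (S : ℂ) ≠ 0 := Nat.cast_ne_zero.2 hS
  field_simp
  ring

lemma chiA_isCharacter (hn : 2 ≤ n) (α : MulChar F ℂ) : IsCharacter SLn (chiA α) := by
  haveI : NeZero n := ⟨by omega⟩
  rw [← indFun_lineChar hn α]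
  exact Chars.Induced.isCharacter_indFun_hom _ (lineChar α)

lemma sum_units_mulChar (α : MulChar F ℂ) :
    ∑ a : Fˣ, α a = if α = 1 then (Fintype.card Fˣ : ℂ) else 0 := by
  have h := sum_hom_units ((α : F →* ℂ).comp (Units.coeHom F))
  simp only [MonoidHom.coe_comp, Function.comp_apply, Units.coeHom_apply,
    MonoidHom.coe_coe] at h
  rw [h, Nat.cast_ite, Nat.cast_zero]
  congr 1
  rw [eq_iff_iff, MonoidHom.ext_iff, MulChar.eq_one_iff]
  simp

theorem classInner_chiA (hn : 3 ≤ n) (α β : MulChar F ℂ) :
    classInner (chiA (n := n) α) (chiA β) =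
      (if α = 1 then 1 else 0) * (if β = 1 then 1 else 0) + (if α = β then 1 else 0) := by
  set k := (Fintype.card Fˣ : ℂ) with hk
  have hk0 : k ≠ 0 := Nat.cast_ne_zero.2 Fintype.card_ne_zero
  have hG : (Nat.card SLn : ℂ) ≠ 0 := Nat.cast_ne_zero.2 Nat.card_pos.ne'
  have hc : ∀ c : Fˣ, conj (β c) = β⁻¹ c := fun c => by rw [← MulChar.star_apply']; rfl
  have hg : ∀ (γ : MulChar F ℂ) (g : SLn), chiA γ g = k⁻¹ * ∑ c : Fˣ, γ c *
      ((Finset.univ.filter fun v : {v : Fin n → F // v ≠ 0} =>
        (g : Matrix (Fin n) (Fin n) F) *ᵥ (v : Fin n → F) = (c : F) • (v : Fin n → F)).card : ℂ) := by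
    intro γ g
    rw [chiA, Finset.sum_comm, ← hk]
    simp only [Finset.natCast_card_filter, Finset.mul_sum, mul_ite, mul_one, mul_zero]
  have hM : ∀ c d : Fˣ, ∑ g : SLn,
      ((Finset.univ.filter fun v : {v : Fin n → F // v ≠ 0} =>
        (g : Matrix (Fin n) (Fin n) F) *ᵥ (v : Fin n → F) = (c : F) • (v : Fin n → F)).card : ℂ) *
      ((Finset.univ.filter fun v : {v : Fin n → F // v ≠ 0} =>
        (g : Matrix (Fin n) (Fin n) F) *ᵥ (v : Fin n → F) = (d : F) • (v : Fin n → F)).card : ℂ) =
      (Nat.card SLn : ℂ) * (1 + if c = d then k else 0) := by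
    intro c d
    have h := congrArg (Nat.cast : ℕ → ℂ) (sum_numEigen (n := n) hn c d)
    push_cast [apply_ite (Nat.cast : ℕ → ℂ)] at h
    rw [hk, ← h]
    simp only [numEigen, Finset.natCast_card_filter, Finset.sum_mul_sum]
    rw [Finset.sum_comm]
    refine Finset.sum_congr rfl fun v _ => ?_
    rw [Finset.sum_comm]
    refine Finset.sum_congr rfl fun w _ => Finset.sum_congr rfl fun g _ => ?_
    split_ifs <;> simp_all
  have h : classInner (chiA (n := n) α) (chiA β) = (Nat.card SLn : ℂ)⁻¹ * (k⁻¹ * k⁻¹ *
      ∑ c : Fˣ, ∑ d : Fˣ, α c * β⁻¹ d * ((Nat.card SLn : ℂ) * (1 + if c = d then k else 0))) := by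
    simp only [← hM, classInner, hg, map_mul, map_inv₀, map_natCast, map_sum, hc, Finset.mul_sum,
      Finset.sum_mul]
    rw [show conj k = k from Complex.conj_natCast _]
    rw [Finset.sum_comm_cycle]
    refine Finset.sum_congr rfl fun c _ => ?_
    rw [Finset.sum_comm]
    refine Finset.sum_congr rfl fun d _ => Finset.sum_congr rfl fun g _ => ?_
    ring
  rw [h]
  have e : ∑ c : Fˣ, ∑ d : Fˣ, α c * β⁻¹ d * ((Nat.card SLn : ℂ) * (1 + if c = d then k else 0)) =
      (Nat.card SLn : ℂ) * ((∑ c : Fˣ, α c) * (∑ d : Fˣ, β⁻¹ d) + k * ∑ c : Fˣ, (α * β⁻¹) c) := by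
    rw [Finset.sum_mul_sum, mul_add, Finset.mul_sum, Finset.mul_sum, Finset.mul_sum,
      ← Finset.sum_add_distrib]
    refine Finset.sum_congr rfl fun c _ => ?_
    rw [Finset.mul_sum, MulChar.mul_apply]
    simp only [mul_add, mul_one, Finset.sum_add_distrib, mul_ite, mul_zero, Finset.sum_ite_eq,
      Finset.mem_univ, if_true]
    congr 1
    · exact Finset.sum_congr rfl fun d _ => by ring
    · ring
  rw [e, sum_units_mulChar, sum_units_mulChar, sum_units_mulChar]
  simp only [inv_eq_one, mul_inv_eq_one, ← hk]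
  split_ifs <;> field_simp <;> ring

end CfsgLib.SlVectorChars
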